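import Cfsg.Agent.SolvStr.Cls1
import Cfsg.Agent.SolvStr.Kegel

/-! Coprime class sizes in a group without commuting normal subgroups. -/

set_option linter.unusedSectionVars false

namespace CF.Cgd
open Subgroup CF.BG CF.SolvStr
open scoped commutatorElement Pointwise

/-- no two nontrivial normal subgroups commute -/
def Pr (G : Type*) [Group G] : Prop := ∀ a b : G, a ≠ 1 → b ≠ 1 → ∃ g, g * b * g⁻¹ ∉ 𝐂₁ a

/-- class sizes divisible by `p` are coprime to those divisible by `q` -/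
def Hy (G : Type*) [Group G] (p q : ℕ) : Prop :=
  ∀ x y : G, p ∣ ind x → q ∣ ind y → (ind x).Coprime (ind y)

variable {G : Type*} [Group G] [Finite G] {p q : ℕ}

theorem Hy.symm (h : Hy G p q) : Hy G q p := fun x y a b => (h y x b a).symm

theorem nil_of_cent {H : Subgroup G} {u : ℕ} (h : ∀ x ∈ H, PiElt {u}ᶜ x → x ∈ 𝐂 H) : Nil H := by
  have key : ∀ p P, p ≠ u → Syl p P H → P ≤ 𝐂 H := fun p P hp hP x hx =>
    h x (hP.le hx) ((hP.pi.elt hx).of_single' hp)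
  refine nil_of_forall_syl fun p _ _ => ?_
  obtain ⟨P, hP⟩ := exists_syl p H
  refine ⟨P, hP, ?_⟩
  by_cases e : p = u
  · refine le_of_forall_syl fun r _ _ => ?_
    by_cases er : r = u
    · exact ⟨P, by rw [er, ← e]; exact hP, le_norm_self P⟩
    · obtain ⟨R, hR⟩ := exists_syl r H
      exact ⟨R, hR, norm_of_cent ((key r R er hR).trans (cent_anti hP.le))⟩
  · exact norm_of_cent' ((key p P e hP))

theorem exists_conj_mem {H : Subgroup G} {l : ℕ} (hl : l.Prime) (h : ¬ l ∣ H.index) {a : G}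
    (ha : PiElt {l} a) : ∃ g, g * a * g⁻¹ ∈ H := by
  obtain ⟨P, hP⟩ := exists_syl l H
  obtain ⟨g, -, hg⟩ := (syl_top_of_not_dvd hP ((piNat_compl_single hl).2 h)).syl_cj_le
    (K := zpowers a) le_top (piGrp_zpowers.2 ha)
  exact ⟨g, hP.le (hg (conj_mem_cj.2 (mem_zpowers a)))⟩

theorem ne_one_of_dvd (hq : q.Prime) {y : G} (hy : q ∣ ind y) : y ≠ 1 := by
  rintro rfl
  rw [ind_eq_one.2 (one_mem _)] at hy
  exact hq.ne_one (Nat.dvd_one.1 hy)

theorem constt_ne_one {l : ℕ} (hl : l.Prime) {a : G} (h : l ∣ orderOf a) : constt {l} a ≠ 1 :=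
  fun e => (piNat_compl_single hl).1 (constt_eq_one.1 e) h

namespace Pr

theorem not_abel (pr : Pr G) {M : Subgroup G} (n : M.Normal) (h1 : M ≠ ⊥) : ¬ Abel M := fun ab => by
  obtain ⟨a, ha, a1⟩ := exists_mem_ne_one h1
  obtain ⟨g, hg⟩ := pr a a a1 a1
  exact hg (mem_cent1.2 (ab.mul_comm (n.conj_mem a ha g) ha))

theorem not_cent (pr : Pr G) {M N : Subgroup G} (n : N.Normal) (h1 : M ≠ ⊥) (k1 : N ≠ ⊥) :
    ¬ N ≤ 𝐂 M := fun c => by
  obtain ⟨a, ha, a1⟩ := exists_mem_ne_one h1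
  obtain ⟨b, hb, b1⟩ := exists_mem_ne_one k1
  obtain ⟨g, hg⟩ := pr a b a1 b1
  exact hg (cent_le_cent1 ha (c (n.conj_mem b hb g)))

theorem not_sol (pr : Pr G) {y : G} (hy : y ≠ 1) : ¬ Group.IsSolvable G := fun s => by
  obtain ⟨M, -, ⟨n, h1⟩, hm⟩ := exists_minimal (P := fun M : Subgroup G => M.Normal ∧ M ≠ ⊥)
    (H := ⊤) ⟨inferInstance, ne_bot_of_mem (mem_top y) hy⟩
  refine pr.not_abel n h1 (der_eq_bot.1 (by_contra fun h => ?_))
  exact (IsSolvable.commutator_lt_of_ne_bot h1).ne (hm _ ⟨inferInstance, h⟩ (der_le M))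

theorem k1 (pr : Pr G) {a b : G} (ha : a ≠ 1) (hb : b ≠ 1) (c : (ind a).Coprime (ind b)) (g : G) :
    g * b * g⁻¹ ∉ 𝐂₁ a := fun hm => by
  obtain ⟨g', hg'⟩ := pr a b ha hb
  obtain ⟨k, hk, e⟩ := exists_conj_cent1 (a := a) (b := g * b * g⁻¹) (y := g' * b * g'⁻¹)
    (by rwa [ind_conj]) (mem_cls.2 ⟨g' * g⁻¹, by group⟩)
  exact hg' (e ▸ mul_mem (mul_mem hk hm) (inv_mem hk))

theorem k2 (pr : Pr G) {a b : G} (hb : b ≠ 1) (c : (ind a).Coprime (ind b)) {l : ℕ} (hl : l.Prime)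
    (h : l ∣ orderOf a) : l ∣ ind b := by
  by_contra hn
  obtain ⟨g, hg⟩ := exists_conj_mem hl hn (constt_pi {l} a)
  exact pr.k1 hb (constt_ne_one hl h) (c.symm.coprime_dvd_right (ind_constt_dvd _ _)) g hg

theorem vx (pr : Pr G) (hp : p.Prime) (h : p ∣ Nat.card G) : ∃ x : G, p ∣ ind x := by
  by_contra hn
  obtain ⟨P, hP⟩ := exists_syl p (⊤ : Subgroup G)
  have c := syl_le_center hP fun x => (piNat_compl_single hp).2 fun d => hn ⟨x, d⟩
  exact pr.not_abel (M := center G) inferInstance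
    (ne_bot_mono (hP.syl_ne_bot hp (by rwa [card_top'])) c) (center_le_cent _)

theorem lemG (pr : Pr G) (hq : q.Prime) {a : G} (ha : a ≠ 1) (haq : PiElt {q} a)
    (hc : ∀ y : G, q ∣ ind y → (ind a).Coprime (ind y)) {y : G} (hy : q ∣ ind y) : Nil (𝐂₁ y) := by
  set σ : Set ℕ := {l | ∃ y : G, q ∣ ind y ∧ l ∣ ind y}
  have i1 : ∀ z : G, q ∣ ind z → PiElt σᶜ z := fun z hz l hl hd ⟨w, hw, hl'⟩ =>
    not_dvd_of_coprime (hc w hw) hl (pr.k2 ha (hc z hz).symm hl hd) hl'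
  have i2 : ∀ z : G, q ∣ ind z → Hall σᶜ (𝐂₁ z) ⊤ := fun z hz => by
    refine ⟨le_top, fun l hl hd hs => ?_, ?_⟩
    · obtain ⟨w, hw, ho⟩ := exists_mem_orderOf_eq hl hd
      have pw : PiElt σ w := by rw [PiElt, ho]; exact (piNat_prime hl).2 hs
      have c : z * w = w * z := (mem_cent1.1 hw).symm
      have co := (i1 z hz).coprime' pw
      have := (i1 _ (hz.trans (ind_dvd_mul_left c co))).of_mem_zpowers (mem_zpowers_mul_right c co)
      rw [PiElt, ho] at this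
      exact (piNat_prime hl).1 this hs
    · rw [relIndex_top_right, compl_compl]
      exact fun l _ hd => ⟨z, hz, hd⟩
  obtain ⟨l, hl, hd⟩ := Nat.exists_prime_and_dvd (n := orderOf y)
    (by rw [Ne, orderOf_eq_one_iff]; exact ne_one_of_dvd hq hy)
  have h0 : q ∣ ind (constt {l} y) := by
    by_contra hn
    obtain ⟨g, hg⟩ := exists_conj_mem hq hn haq
    exact pr.k1 (constt_ne_one hl hd) ha ((hc y hy).symm.coprime_dvd_left (ind_constt_dvd _ _)) g hg
  rw [(i2 y hy).eq_of_le' (i2 _ h0) (cent1_le_cent1_constt _ _)]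
  refine nil_of_cent (u := l) fun w hw pw => ?_
  have c : constt {l} y * w = w * constt {l} y := (mem_cent1.1 hw).symm
  have co := (constt_pi {l} y).coprime pw
  have e := (i2 _ (h0.trans (ind_dvd_mul_left c co))).eq_of_le' (i2 _ h0)
    ((cent1_mul c co).le.trans inf_le_left)
  exact le_cent1_iff.1 (e.ge.trans ((cent1_mul c co).le.trans inf_le_right))

theorem lemF (pr : Pr G) (hq : q.Prime) (H : Subgroup G) (u : ℕ) {y : G} (hy : q ∣ ind y)
    (ha : H.index.Coprime (ind y))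
    (hb : ∀ h ∈ H, ∀ z : G, q ∣ ind z → (ind h).Coprime (ind z))
    (hc : ∀ h ∈ H, PiElt {u}ᶜ h → ((𝐂₁ h).relIndex H).Coprime (ind y)) : False := by
  have y1 := ne_one_of_dvd hq hy
  have qH : q ∣ ♯H := by
    have : q ∣ ♯H * H.index := by rw [card_mul_index]; exact hy.trans (index_dvd_card _)
    exact ((Nat.Prime.dvd_mul hq).1 this).resolve_right (not_dvd_of_coprime ha.symm hq hy)
  obtain ⟨a, aH, ao⟩ := exists_mem_orderOf_eq hq qH
  have n2 := pr.lemG hq (a := a) (fun e => hq.ne_one (by rw [← ao, e, orderOf_one]))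
    (by rw [PiElt, ao]; exact piNat_self hq) (hb a aH) hy
  have n1 : Nil H := nil_of_cent (u := u) fun h hh ph => by
    refine le_cent1_iff.1 (relIndex_eq_one.1 ?_)
    by_contra hn
    obtain ⟨l, hl, hd⟩ := Nat.exists_prime_and_dvd hn
    obtain ⟨w, wH, wo⟩ := exists_mem_orderOf_eq hl (hd.trans (relIndex_dvd_card _ H))
    exact not_dvd_of_coprime (hc h hh ph) hl hd (pr.k2 y1 (hb w wH y hy) hl wo.symm.dvd)
  exact pr.not_sol y1 (kegel_wielandt (A := H) (B := 𝐂₁ y)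
    (CF.Fgs2.exists_mul_of_coprime_index ha.symm))

end Pr

theorem Hy.ex_a (h : Hy G p q) (hq : q.Prime) {x y : G} (hx : p ∣ ind x) (hy : q ∣ ind y) :
    ∃ a : G, a ≠ 1 ∧ PiElt {q} a ∧ ∀ z : G, q ∣ ind z → (ind a).Coprime (ind z) := by
  by_cases c : q ∣ orderOf x
  · exact ⟨_, constt_ne_one hq c, constt_pi _ _, fun z hz =>
      (h x z hx hz).coprime_dvd_left (ind_constt_dvd _ _)⟩
  have : q ∣ ♯(𝐂₁ x) * ind x := by rw [card_mul_ind]; exact hy.trans (index_dvd_card _)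
  obtain ⟨a, aH, ao⟩ := exists_mem_orderOf_eq hq
    (((Nat.Prime.dvd_mul hq).1 this).resolve_right (not_dvd_of_coprime (h x y hx hy).symm hq hy))
  have cm : x * a = a * x := (mem_cent1.1 aH).symm
  have co : (orderOf x).Coprime (orderOf a) := by
    rw [ao]; exact ((Nat.Prime.coprime_iff_not_dvd hq).2 c).symm
  exact ⟨a, fun e => hq.ne_one (by rw [← ao, e, orderOf_one]),
    by rw [PiElt, ao]; exact piNat_self hq, fun z hz =>
      (h _ z (hx.trans (ind_dvd_mul_left cm co)) hz).coprime_dvd_left (ind_dvd_mul_right cm co)⟩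

theorem Pr.c1 (pr : Pr G) (h : Hy G p q) (hp : p.Prime) (hq : q.Prime) (dp : p ∣ Nat.card G)
    (dq : q ∣ Nat.card G) : False := by
  obtain ⟨x, hx⟩ := pr.vx hp dp
  obtain ⟨y, hy⟩ := pr.vx hq dq
  obtain ⟨a, a1, aq, ha⟩ := h.ex_a hq hx hy
  obtain ⟨b, b1, bp, hb⟩ := h.symm.ex_a hp hy hx
  have n1 := pr.lemG hq a1 aq ha hy
  have n2 := pr.lemG hp b1 bp hb hx
  exact pr.not_sol a1 (kegel_wielandt (A := 𝐂₁ x) (B := 𝐂₁ y) (exists_mul_cent1 (h x y hx hy)))

end CF.Cgd
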