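import Cfsg.Agent.Cgd.A
import Cfsg.Agent.Hyp.FTProof

/-! Reduction to a quotient in which `[G, S]` is a minimal normal subgroup. -/

set_option linter.unusedSectionVars false

namespace CF.Cgd
open Subgroup CF.BG CF.SolvStr
open scoped commutatorElement Pointwise
universe u v

/-- `s` divides a class size -/
def Vx (s : ℕ) (G : Type*) [Group G] : Prop := ∃ x : G, s ∣ ind x

variable {G : Type*} [Group G] [Finite G] {p q s : ℕ}

theorem nrm {N : Subgroup G} (n : N.Normal) (H : Subgroup G) : H ≤ 𝐍 N :=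
  le_top.trans (normalIn_top.2 n).norm

theorem nrm' {N : Subgroup G} (n : ⊤ ≤ 𝐍 N) : N.Normal := normalIn_top.1 ⟨le_top, n⟩

theorem ito' (hp : p.Prime) (hq : q.Prime) (h : ∀ x : G, p ∣ ind x → ¬ q ∣ ind x) :
    NPC p (⊤ : Subgroup G) ∨ NPC q (⊤ : Subgroup G) := by
  obtain ⟨P, hP⟩ := exists_syl p (⊤ : Subgroup G)
  obtain ⟨Q, hQ⟩ := exists_syl q (⊤ : Subgroup G)
  refine (ito hP hQ fun x => ?_).imp (fun c => hP.burnside (inf_le_right.trans c))
    fun c => hQ.burnside (inf_le_right.trans c)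
  rw [piNat_compl_single hp, piNat_compl_single hq, ← not_and_or]
  exact fun c => h x c.1 c.2

theorem sol_npc {B : Subgroup G} (h : NPC 2 B) : Sol B := by
  obtain ⟨R, hR⟩ := exists_syl 2 B
  have o : Sol (𝐎 {2}ᶜ B) := CF.Hyp.isSolvable_of_odd (Nat.not_even_iff_odd.1 fun e =>
    (piNat_compl_single Nat.prime_two).1 h.pi (even_iff_two_dvd.1 e))
  have d := h.sdprod hR
  exact (o.sup' hR.pi.sol d.norm).mono d.sup.ge

theorem cent_of_rel {B Q : Subgroup G} (hq : q.Prime) (hQ : Syl q Q B)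
    (h : ∀ x ∈ B, ¬ q ∣ (𝐂₁ x).relIndex B) : B ≤ 𝐂 Q := by
  refine (le_of_forall_cj (H := B ⊓ 𝐂 Q) inf_le_left fun x hx => ?_).trans inf_le_right
  obtain ⟨P, hP⟩ := exists_syl q (𝐂₁ x ⊓ B)
  obtain ⟨g, hg, e⟩ := hQ.syl_conj (hP.trans_idx inf_le_right
    (by rw [inf_relIndex_right]; exact (piNat_compl_single hq).2 (h x hx)))
  refine ⟨g, hg, ?_⟩
  rw [cj_inf, cj_cent, ← e, cj_of_norm (le_norm_self B hg)]
  exact ⟨hx, le_cent1_iff.1 (hP.le.trans inf_le_left)⟩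

theorem sol_of_rel {B : Subgroup G} (h : ∀ x ∈ B, ¬ 2 ∣ (𝐂₁ x).relIndex B) : Sol B := by
  obtain ⟨R, hR⟩ := exists_syl 2 B
  exact sol_npc (hR.burnside (inf_le_left.trans (cent_of_rel Nat.prime_two hR h)))

theorem sol_top : Sol (⊤ : Subgroup G) ↔ Group.IsSolvable G :=
  ⟨fun _ => Group.isSolvable_of_surjective (f := (⊤ : Subgroup G).subtype)
    fun x => ⟨⟨x, trivial⟩, rfl⟩, fun _ => inferInstance⟩

theorem red {L : Type v} [Group L] (s : ℕ)
    (T : ∀ (G : Type u) [Group G] [Finite G], (G →* L) → Prop)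
    (hT : ∀ (G : Type u) [Group G] [Finite G] (N : Subgroup G) [N.Normal] (φ : G ⧸ N →* L),
      T G (φ.comp (QuotientGroup.mk' N)) → T (G ⧸ N) φ)
    (fin : ∀ (G : Type u) [Group G] [Finite G] (φ : G →* L), T G φ → Vx s G →
      (∀ (N : Subgroup G) [N.Normal], N ≠ ⊥ → N ≤ φ.ker → ¬ Vx s (G ⧸ N)) → False)
    (G : Type u) [Group G] [Finite G] (φ : G →* L) : T G φ → Vx s G → False := by
  induction hn : Nat.card G using Nat.strong_induction_on generalizing G with | _ n ih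
  intro t vx
  refine fin G φ t vx fun N _ h1 hN vx' => ?_
  refine ih (Nat.card (G ⧸ N)) ?_ (G ⧸ N) (QuotientGroup.lift N φ fun x hx => hN hx) rfl
    (hT G N _ (by rwa [QuotientGroup.lift_comp_mk'])) vx'
  rw [← hn, card_eq_card_quotient_mul_card_subgroup N]
  exact lt_mul_of_one_lt_right Nat.card_pos (one_lt_card.2 h1)

theorem comm_le {S N : Subgroup G} [N.Normal] (hs : s.Prime) (hS : Syl s S ⊤)
    (h : ¬ Vx s (G ⧸ N)) : ⁅(⊤ : Subgroup G), S⁆ ≤ N := by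
  have k := hS.map (QuotientGroup.mk' N)
  rw [map_top_of_surjective _ (QuotientGroup.mk'_surjective N)] at k
  have c := syl_le_center k fun x => (piNat_compl_single hs).2 fun d => h ⟨x, d⟩
  refine commutator_le.2 fun g _ x hx => ?_
  rw [← QuotientGroup.eq_one_iff, ← QuotientGroup.mk'_apply, map_commutatorElement,
    commutatorElement_eq_one_iff_mul_comm]
  exact mem_center_iff.1 (c (mem_map_of_mem _ hx)) _

/-- the minimal configuration -/
structure Vs (s : ℕ) (V D : Subgroup G) : Prop where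
  n : V.Normal
  mn : ∀ N : Subgroup G, N.Normal → N ≠ ⊥ → N ≤ V → V ≤ N
  nle : ¬ V ≤ D
  sup : ∀ g, ∃ v ∈ V, ∃ d ∈ D, v * d = g
  cov : ∀ g : G, ¬ s ∣ ind g → ∃ w ∈ V, w * g * w⁻¹ ∈ D

theorem tri {K S C : Subgroup G} (hs : s.Prime) (hS : Syl s S ⊤) (hK : Hall {s}ᶜ K ⊤)
    (nK : K.Normal) (nC : C.Normal) (hC : S ≤ C) (vx : Vx s G)
    (mn : ∀ N : Subgroup G, N.Normal → N ≠ ⊥ → N ≤ C → ⁅(⊤ : Subgroup G), S⁆ ≤ N) :
    (∃ a : G, s ∣ ind a ∧ ∀ b ∈ K, ind a ∣ ind (a * b) ∧ ind b ∣ ind (a * b)) ∨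
      ∃ V D, V ≤ C ∧ Vs s V D := by
  have sup : S ⊔ K = ⊤ := hS.sup_eq hK
  by_cases nS : ⊤ ≤ 𝐍 S
  · left
    have c : S ≤ 𝐂 K := hS.pi.cent_of_norm hK.pi (nrm nK S) (le_top.trans nS)
    have : ∃ a ∈ S, s ∣ ind a := by
      by_contra hn
      push Not at hn
      have ab := cent_of_rel hs (Hall.refl hS.pi) fun x hx d =>
        hn x hx (d.trans (relIndex_dvd_ind nS x))
      obtain ⟨x, hx⟩ := vx
      have : S ≤ 𝐂₁ x := le_cent1_iff.2 ((sup_le ab (cent_symm c)) (sup ▸ mem_top x))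
      exact (piNat_compl_single hs).1 (pi_ind_of_hall hS this) hx
    obtain ⟨a, aS, ha⟩ := this
    refine ⟨a, ha, fun b hb => ?_⟩
    have cm : a * b = b * a := (mem_cent.1 (c aS) b hb).symm
    have co := (hS.pi.elt aS).coprime (hK.pi.elt hb)
    exact ⟨ind_dvd_mul_left cm co, ind_dvd_mul_right cm co⟩
  right
  set V := ⁅(⊤ : Subgroup G), S⁆
  have nV : V.Normal := nrm' (norm_comm_left _ _)
  have VC : V ≤ C := (commutator_mono le_rfl hC).trans (comm_le_right (nrm nC _))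
  have VK : V ≤ K := by
    refine (mn (V ⊓ K) inferInstance (fun e => nS ?_) (inf_le_left.trans VC)).trans inf_le_right
    rw [← sup]
    refine sup_le (le_norm_self S) (norm_of_cent (comm_eq_bot.1 (eq_bot_mono e ?_)))
    exact le_inf (commutator_mono le_top le_rfl) (comm_le_left (nrm nK S))
  have i : V ⊓ S = ⊥ := (hK.pi.le VK).inf_eq_bot' hS.pi
  have nVS : ⊤ ≤ 𝐍 (V ⊔ S) := norm_of_comm_le' (by
    refine comm_sup_le' ((comm_le_right (nrm nV _)).trans le_sup_left) le_sup_left ?_ ?_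
    · exact norm_of_le le_sup_left
    · exact norm_of_le le_sup_right)
  have hS' : Syl s S (V ⊔ S) := hS.of_le le_sup_right le_top
  have nc : 𝐍 S ≤ 𝐂 S := comm_eq_bot.1 (eq_bot_mono i
    (le_inf (commutator_mono le_top le_rfl) (comm_le_right le_rfl)))
  have sp : ∀ g, ∃ v ∈ V, ∃ d ∈ 𝐂 S, v * d = g := fun g => by
    obtain ⟨a, ha, b, hb, e⟩ := hS'.syl_frattini ⟨le_top, nVS⟩ (mem_top g)
    obtain ⟨v, hv, t, ht, rfl⟩ := (mem_sup_norm' (nrm nV S)).1 ha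
    exact ⟨v, hv, t * b, nc (mul_mem (le_norm_self S ht) hb.2), by rw [← e, mul_assoc]⟩
  refine ⟨V, 𝐂 S, VC, nV, fun N n h1 h => mn N n h1 (h.trans VC), fun c => nS ?_, sp, fun g hg => ?_⟩
  · exact nVS.trans (hS'.norm_le_norm (sup_le (norm_of_cent c) (le_norm_self S)))
  · obtain ⟨h, hh⟩ := exists_mem_cj_cent hS ((piNat_compl_single hs).2 hg)
    obtain ⟨v, hv, d, hd, rfl⟩ := sp h
    rw [← cj_cj, cj_of_norm (le_norm_self _ hd), mem_cj] at hh
    exact ⟨v⁻¹, inv_mem hv, by rwa [inv_inv]⟩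

namespace Vs
variable {V D : Subgroup G}

theorem ne (h : Vs s V D) : V ≠ ⊥ := fun e => h.nle (e ▸ bot_le)

theorem ex (h : Vs s V D) : ∃ a ∈ V, s ∣ ind a := by
  by_contra hn
  push Not at hn
  refine h.nle ((le_of_forall_cj (H := V ⊓ D) inf_le_left fun x hx => ?_).trans inf_le_right)
  obtain ⟨w, hw, e⟩ := h.cov x (hn x hx)
  exact ⟨w⁻¹, inv_mem hw, mem_cj_inv.2 (mem_inf.2 ⟨V.mul_mem (V.mul_mem hw hx) (V.inv_mem hw), e⟩)⟩

theorem inf (h : Vs s V D) (ab : Abel V) : V ⊓ D = ⊥ := by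
  by_contra h1
  refine h.nle ((h.mn _ (nrm' fun g _ => ?_) h1 inf_le_left).trans inf_le_right)
  obtain ⟨v, hv, d, hd, rfl⟩ := h.sup g
  exact mul_mem (ab.le_norm inf_le_left hv) (norm_inf (nrm h.n D) (le_norm_self D) hd)

theorem dag (h : Vs s V D) (ab : Abel V) {d w : G} (hd : d ∈ D) (hw : w ∈ V) (w1 : w ≠ 1)
    (c : w ∈ 𝐂₁ d) : ∃ v ∈ V, s ∣ ind (v * d) := by
  by_contra hn
  push Not at hn
  let f : V → V := fun x => ⟨x⁻¹ * (d * x * d⁻¹), mul_mem (inv_mem x.2) (h.n.conj_mem _ x.2 d)⟩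
  have sj : Function.Surjective f := fun v => by
    obtain ⟨x, hx, e⟩ := h.cov _ (hn v v.2)
    refine ⟨⟨x, hx⟩, Subtype.ext ?_⟩
    have m : x * v * (d * x⁻¹ * d⁻¹) ∈ V ⊓ D :=
      mem_inf.2 ⟨mul_mem (mul_mem hx v.2) (h.n.conj_mem _ (inv_mem hx) d), by
        have := mul_mem e (inv_mem hd)
        convert this using 1
        group⟩
    have e1 := eq_one_of_mem_bot (h.inf ab) m
    change x⁻¹ * (d * x * d⁻¹) = v
    calc x⁻¹ * (d * x * d⁻¹) = x⁻¹ * (x * v * (d * x⁻¹ * d⁻¹)) * (d * x * d⁻¹) := by rw [e1]; group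
      _ = v := by group
  have := Finite.injective_iff_surjective.2 sj (a₁ := ⟨w, hw⟩) (a₂ := 1) (Subtype.ext (by
    change w⁻¹ * (d * w * d⁻¹) = (1 : G)⁻¹ * (d * 1 * d⁻¹)
    rw [← mem_cent1.1 c]; group))
  exact w1 (congrArg Subtype.val this)

theorem one (h : Vs s V D) (ab : Abel V) {v : G} (hv : v ∈ V) (v1 : v ≠ 1) : s ∣ ind v := by
  by_contra hn
  obtain ⟨w, hw, e⟩ := h.cov v hn
  rw [ab.mul_comm hw hv, mul_inv_cancel_right] at e
  exact v1 (eq_one_of_mem_bot (h.inf ab) ⟨hv, e⟩)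

theorem perf (h : Vs s V D) (ab : ¬ Abel V) : V ≤ ⁅V, V⁆ :=
  have := h.n
  h.mn _ inferInstance (fun e => ab (der_eq_bot.1 e)) (der_le V)

end Vs

theorem pr_quot {D C : Subgroup G} [C.Normal] (hD : D ≤ ⁅D, D⁆) (h : ¬ D ≤ C)
    (mx : ∀ N : Subgroup G, N.Normal → C < N → D ≤ N) : Pr (G ⧸ C) := fun a b a1 b1 => by
  by_contra hn
  push Not at hn
  have key : ∀ x : G ⧸ C, x ≠ 1 → D.map (QuotientGroup.mk' C) ≤ normalClosure {x} := fun x x1 => by
    refine map_le_iff_le_comap.2 (mx _ inferInstance (lt_of_le_of_ne ?_ fun e => x1 ?_))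
    · exact (QuotientGroup.ker_mk' C).ge.trans (ker_le_comap _ _)
    · obtain ⟨y, rfl⟩ := QuotientGroup.mk'_surjective C x
      have : y ∈ C := e ▸ (mem_comap.2 (subset_normalClosure rfl))
      exact (QuotientGroup.eq_one_iff y).2 this
  have c1 : normalClosure {b} ≤ 𝐂₁ a := closure_le _ |>.2 fun z hz => by
    obtain ⟨y, hy, c⟩ := Group.mem_conjugatesOfSet_iff.1 hz
    obtain ⟨g, rfl⟩ := isConj_iff.1 c
    rw [Set.mem_singleton_iff.1 hy]
    exact hn g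
  have c2 : normalClosure {a} ≤ 𝐂 (normalClosure {b}) :=
    haveI : (𝐂 (normalClosure {b})).Normal := nrm' (norm_cent (nrm inferInstance _))
    normalClosure_le_normal (Set.singleton_subset_iff.2 (le_cent1_iff.1 c1))
  have ab : Abel (D.map (QuotientGroup.mk' C)) := cent_mono c2 (key a a1) (key b b1)
  have := der_eq_bot.2 ab
  rw [← map_commutator, Subgroup.map_eq_bot_iff, QuotientGroup.ker_mk'] at this
  exact h (hD.trans this)

end CF.Cgd
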