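import Cfsg.Agent.Cgd.B

/-! The class-size prime graph of a non-solvable group has diameter at most two. -/

set_option linter.unusedSectionVars false

namespace CF.Cgd
open Subgroup CF.BG CF.SolvStr
open scoped commutatorElement Pointwise
universe u v

variable {G : Type*} [Group G] [Finite G] {p q s : ℕ}

theorem ind_map {L : Type*} [Group L] {φ : G →* L} (hf : Function.Surjective φ) (x : G) :
    ind (φ x) ∣ ind x := CF.Fgs1.index_centralizer_map_dvd hf x

theorem Hy.map {L : Type*} [Group L] {φ : G →* L} (hf : Function.Surjective φ) (h : Hy G p q) :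
    Hy L p q := fun x y a b => by
  obtain ⟨x, rfl⟩ := hf x
  obtain ⟨y, rfl⟩ := hf y
  exact ((h x y (a.trans (ind_map hf x)) (b.trans (ind_map hf y))).coprime_dvd_left
    (ind_map hf x)).coprime_dvd_right (ind_map hf y)

theorem syl_le_ker {L : Type*} [Group L] [Finite L] (φ : G →* L) (hs : s.Prime) {S : Subgroup G}
    (hS : PiGrp {s} S) (h : ¬ s ∣ Nat.card L) : S ≤ φ.ker := by
  rw [← Subgroup.map_eq_bot_iff]
  exact (hS.map φ).eq_bot (((piNat_compl_single hs).2 h).dvd (card_subgroup_dvd_card _))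

theorem tri' {L : Type*} [Group L] [Finite L] (φ : G →* L) (hs : s.Prime) (h : ¬ s ∣ Nat.card L)
    (n : NPC s (⊤ : Subgroup G)) (vx : Vx s G)
    (mn : ∀ (N : Subgroup G) [N.Normal], N ≠ ⊥ → N ≤ φ.ker → ¬ Vx s (G ⧸ N)) :
    (∃ a : G, s ∣ ind a ∧ ∀ b ∈ 𝐎 {s}ᶜ (⊤ : Subgroup G), ind a ∣ ind (a * b) ∧ ind b ∣ ind (a * b)) ∨
      ∃ V D, V ≤ φ.ker ∧ Vs s V D := by
  obtain ⟨S, hS⟩ := exists_syl s (⊤ : Subgroup G)
  exact tri hs hS n (nrm' (O_normal _ _).norm) inferInstance (syl_le_ker φ hs hS.pi h) vx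
    fun N _ h1 hN => comm_le hs hS (mn N h1 hN)

theorem Vs.sol_cent {V D : Subgroup G} (h : Vs q V D) (ab : Abel V)
    (o : ∀ y : G, q ∣ ind y → ¬ 2 ∣ ind y) : Group.IsSolvable G := by
  have nF : ⊤ ≤ 𝐍 (𝐂 V) := norm_cent (nrm h.n _)
  have s1 : Sol (𝐂 V) := sol_of_rel fun f hf d => by
    have : ∃ v ∈ V, q ∣ ind (v * f) := by
      by_cases c : q ∣ ind f
      · exact ⟨1, one_mem _, by rwa [one_mul]⟩
      obtain ⟨w, hw, e⟩ := h.cov f c
      rw [mem_cent.1 hf w hw, mul_inv_cancel_right] at e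
      obtain ⟨v, hv, v1⟩ := exists_mem_ne_one h.ne
      exact h.dag ab e hv v1 (mem_cent1.2 (mem_cent.1 hf v hv))
    obtain ⟨v, hv, k⟩ := this
    refine o _ k (d.trans (Dvd.dvd.trans ?_ (relIndex_dvd_ind nF _)))
    rw [← inf_relIndex_right (𝐂₁ (v * f))]
    refine relIndex_dvd_left _ fun x hx => mem_cent1.2 ?_
    have e1 := mem_cent1.1 (mem_inf.1 hx).1
    rw [← mul_assoc, ← mem_cent.1 (mem_inf.1 hx).2 v hv, mul_assoc, mul_assoc] at e1
    exact mul_left_cancel e1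
  have s2 : ∀ n (g : G), orderOf g = n → PiElt {2} g → g ∈ 𝐂 V := fun n => by
    induction n using Nat.strong_induction_on with | _ n ih
    rintro g rfl pg
    by_cases g1 : g = 1
    · exact g1 ▸ one_mem _
    have d2 : 2 ∣ orderOf g := by
      by_contra hn
      exact g1 (pg.eq_one ((piNat_compl_single Nat.prime_two).2 hn))
    have g2 : g ^ 2 ∈ 𝐂 V := ih _ (by
      rw [orderOf_pow_of_dvd two_ne_zero d2]
      exact Nat.div_lt_self (orderOf_pos g) one_lt_two) _ rfl (pg.pow 2)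
    by_contra hn
    obtain ⟨v, hv, c⟩ : ∃ v ∈ V, v * g ≠ g * v := by
      by_contra hc
      push Not at hc
      exact hn (mem_cent.2 hc)
    have wV : v⁻¹ * (g * v * g⁻¹) ∈ V := mul_mem (inv_mem hv) (h.n.conj_mem _ hv g)
    set w := v⁻¹ * (g * v * g⁻¹) with hw
    have w1 : w ≠ 1 := fun e => c (by
      have : g * v * g⁻¹ = v := (inv_mul_eq_one.1 e).symm
      exact (mul_inv_eq_iff_eq_mul.1 this).symm)
    have iw : g * w * g⁻¹ = w⁻¹ := by
      have e := mem_cent.1 g2 v hv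
      calc g * w * g⁻¹ = g * v⁻¹ * g⁻¹ * (g ^ 2 * v) * (g ^ 2)⁻¹ := by rw [hw, pow_two]; group
        _ = w⁻¹ := by rw [← e, hw]; group
    have gw : g ∈ 𝐂₁ w := by
      refine pg.mem_of_relIndex (L := 𝐍 (𝐂₁ w)) ?_ le_rfl ?_
      · rw [← cj_eq_self, cj_cent1, iw, cent1_inv]
      · refine ((piNat_compl_single Nat.prime_two).2 (o w (h.one ab wV w1))).dvd ?_
        exact relIndex_dvd_index_of_le (le_norm_self _)
    have w2 : w ^ 2 = 1 := by
      rw [mem_cent1.1 gw, mul_inv_cancel_right] at iw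
      rw [pow_two]; nth_rw 1 [iw]; exact inv_mul_cancel w
    obtain ⟨R, hR⟩ := exists_syl 2 V
    have pV : PiGrp {2} V := hR.pi.le (h.mn R
      (nrm' ((nrm h.n _).trans (hR.norm_le_norm (ab.le_norm hR.le))))
      (hR.syl_ne_bot Nat.prime_two (orderOf_eq_prime w2 w1 ▸ orderOf_dvd_card' wV)) hR.le)
    have od : ∀ x : G, q ∣ ind x → x ∈ 𝐂 V := fun x hx => le_cent1_iff.1
      (le_cent1_of_coprime (nrm h.n _) (pV.coprime ((piNat_compl_single Nat.prime_two).2 (o x hx))))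
    obtain ⟨x, hx, e⟩ := h.cov g fun k => hn (od g k)
    obtain ⟨z, hz, z1⟩ := exists_mem_ne_one ((piGrp_zpowers.2 (pg.conj x)).inf_cent_ne_bot pV
      (nrm h.n _) h.ne)
    obtain ⟨v', hv', k⟩ := h.dag ab e hz.1 z1 (cent_zpowers (x * g * x⁻¹) ▸ hz.2)
    have m := (𝐂 V).mul_mem (ab (inv_mem hv')) (od _ k)
    rw [inv_mul_cancel_left] at m
    have m2 := conj_mem_of_norm' (nF (mem_top x)) m
    exact hn (by simpa [mul_assoc] using m2)
  obtain ⟨R, hR⟩ := exists_syl 2 (⊤ : Subgroup G)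
  have s3 : Sol (qt (𝐂 V) ⊤) := CF.Hyp.isSolvable_of_odd (Nat.not_even_iff_odd.1 fun e => by
    rw [card_qt nF] at e
    exact (piNat_compl_single Nat.prime_two).1
      (hR.idx_of_le fun x hx => s2 _ x rfl (hR.pi.elt hx)) (even_iff_two_dvd.1 e))
  exact sol_top.1 (s1.of_qt nF s3)

theorem cx {L : Type v} [Group L] [Finite L] (hq : q.Prime) (hL : ¬ Group.IsSolvable L)
    (h : ¬ q ∣ Nat.card L) (G : Type u) [Group G] [Finite G] (φ : G →* L)
    (t : Function.Surjective φ ∧ Sol φ.ker ∧ ∀ y : G, q ∣ ind y → ¬ 2 ∣ ind y) :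
    Vx q G → False := by
  refine red q (fun G _ _ φ => Function.Surjective φ ∧ Sol φ.ker ∧
    ∀ y : G, q ∣ ind y → ¬ 2 ∣ ind y) ?_ ?_ G φ t
  · rintro G _ _ N _ φ ⟨a, b, c⟩
    refine ⟨Function.Surjective.of_comp a, (b.map (QuotientGroup.mk' N)).mono fun x hx => ?_,
      fun y hy d => ?_⟩
    · obtain ⟨y, rfl⟩ := QuotientGroup.mk'_surjective N x
      exact mem_map_of_mem _ hx
    · obtain ⟨y, rfl⟩ := QuotientGroup.mk'_surjective N y
      have := ind_map (QuotientGroup.mk'_surjective N) y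
      exact c y (hy.trans this) (d.trans this)
  rintro G _ _ φ ⟨a, b, c⟩ vx mn
  have ns : ¬ Group.IsSolvable G := fun _ => hL (Group.isSolvable_of_surjective a)
  have n := (ito' hq Nat.prime_two c).resolve_right fun n => ns (sol_top.1 (sol_npc n))
  rcases tri' φ hq h n vx mn with ⟨x, hx, k⟩ | ⟨V, D, hV, vs⟩
  · obtain ⟨S, hS⟩ := exists_syl q (⊤ : Subgroup G)
    have d := n.sdprod hS
    refine ns (sol_top.1 (((sol_of_rel fun y hy e => ?_).sup' hS.pi.sol d.norm).mono d.sup.ge))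
    exact c _ (hx.trans (k y hy).1)
      ((e.trans (relIndex_dvd_ind (O_normal _ _).norm y)).trans (k y hy).2)
  · refine ns (vs.sol_cent (by_contra fun ab => ?_) c)
    have := b.mono hV
    have lt := IsSolvable.commutator_lt_of_ne_bot
      (H := (⊤ : Subgroup V)) (fun e => vs.ne (by rw [← map_top_subtype V, e, Subgroup.map_bot]))
    have := map_mono (f := V.subtype) (lt_iff_le_not_ge.1 lt).1
    refine (lt_iff_le_not_ge.1 lt).2 ((map_le_map_iff_of_injective V.subtype_injective).1 ?_)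
    rw [map_commutator, map_top_subtype]
    exact vs.perf ab

theorem vx_of_normal {L : Type*} [Group L] [Finite L] {φ : G →* L} (hf : Function.Surjective φ)
    (pr : Pr L) (hq : q.Prime) (h : q ∣ Nat.card L) {B : Subgroup G} (n : B.Normal)
    (i : ¬ q ∣ B.index) : ∃ b ∈ B, q ∣ ind b := by
  by_contra hn
  push Not at hn
  obtain ⟨Q, hQ⟩ := exists_syl q B
  have c := cent_of_rel hq hQ fun x hx d => hn x hx (d.trans (relIndex_dvd_ind (nrm n _) x))
  have k := (syl_top_of_not_dvd hQ ((piNat_compl_single hq).2 i)).map φ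
  rw [map_top_of_surjective _ hf] at k
  exact pr.not_abel ((nrm' ((nrm n _).trans (hQ.norm_le_norm (norm_of_cent c)))).map φ hf)
    (k.syl_ne_bot hq (by rwa [card_top'])) (Abel.map (hQ.le.trans c) φ)

theorem not_npc {L : Type*} [Group L] [Finite L] (pr : Pr L) {y : L} (y1 : y ≠ 1) :
    ∃ r : ℕ, r.Prime ∧ r ∣ ind y ∧ ¬ NPC r (⊤ : Subgroup L) := by
  obtain ⟨M, -, ⟨n, h1⟩, hm⟩ := exists_minimal (P := fun M : Subgroup L => M.Normal ∧ M ≠ ⊥)
    (H := ⊤) ⟨inferInstance, ne_bot_of_mem (mem_top y) y1⟩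
  have : ¬ (♯M).Coprime (ind y) := fun c => pr.not_cent n (ne_bot_of_mem (mem_zpowers y) y1) h1
    (cent_zpowers y ▸ le_cent1_of_coprime (nrm n _) c)
  obtain ⟨r, hr, a, b⟩ := Nat.Prime.not_coprime_iff_dvd.1 this
  refine ⟨r, hr, b, fun k => ?_⟩
  have nK := nrm' (O_normal {r}ᶜ (⊤ : Subgroup L)).norm
  by_cases e : M ⊓ 𝐎 {r}ᶜ (⊤ : Subgroup L) = ⊥
  · refine pr.not_cent n (fun e' => ?_) h1 (cent_of_inf_eq_bot (nrm nK _) (nrm n _) e)
    rw [NPC, e'] at k
    exact pr.not_sol y1 (sol_top.1 (PiGrp.of_compl_compl k.pi'_of_eq_bot).sol)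
  · exact (piNat_compl_single hr).1
      (k.pi.le ((hm _ ⟨inferInstance, e⟩ inf_le_left).ge.trans inf_le_right)) a

theorem c2 {L : Type v} [Group L] [Finite L] (pr : Pr L) (hp : p.Prime) (hq : q.Prime)
    (dq : q ∣ Nat.card L) (dp : ¬ p ∣ Nat.card L) (G : Type u) [Group G] [Finite G] (φ : G →* L)
    (t : Function.Surjective φ ∧ Hy G p q) : Vx p G → False := by
  refine red p (fun G _ _ φ => Function.Surjective φ ∧ Hy G p q) ?_ ?_ G φ t
  · rintro G _ _ N _ φ ⟨a, b⟩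
    exact ⟨Function.Surjective.of_comp a, b.map (QuotientGroup.mk'_surjective N)⟩
  rintro G _ _ φ ⟨a, hy⟩ vx mn
  have co : ∀ (x : G) (z : L), p ∣ ind x → q ∣ ind z → (ind x).Coprime (ind z) := fun x z hx hz => by
    obtain ⟨z, rfl⟩ := a z
    exact (hy x z hx (hz.trans (ind_map a z))).coprime_dvd_right (ind_map a z)
  have pq : ∀ x : G, p ∣ ind x → ¬ q ∣ ind x := fun x b c =>
    not_dvd_of_coprime (hy x x b c) hp b b
  obtain ⟨y, hy'⟩ := pr.vx hq dq
  obtain ⟨r, hr, ry, nr⟩ := not_npc pr (ne_one_of_dvd hq hy')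
  have n := (ito' hp hr fun x hx d => not_dvd_of_coprime (co x y hx hy') hr d ry).resolve_right
    fun k => nr (by
      have k' := Hall.map k φ
      rw [map_top_of_surjective _ a] at k'
      exact k'.hall_O (nrm ((nrm' (O_normal _ _).norm).map φ a) _))
  rcases tri' φ hp dp n vx mn with ⟨x, hx, k⟩ | ⟨V, D, hV, vs⟩
  · obtain ⟨b, hb, qb⟩ := vx_of_normal a pr hq dq (nrm' (O_normal {p}ᶜ _).norm) fun d => by
      have := n.idx q hq (by rwa [relIndex_top_right])
      rw [compl_compl, Set.mem_singleton_iff] at this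
      exact dp (this ▸ dq)
    exact pq _ (hx.trans (k b hb).1) (qb.trans (k b hb).2)
  have nB : (𝐂 V).Normal := nrm' (norm_cent (nrm vs.n _))
  by_cases ab : Abel V
  · obtain ⟨u, hu, du⟩ := exists_prime_dvd_card vs.ne
    obtain ⟨v, hv, vo⟩ := exists_mem_orderOf_eq hu du
    have v1 : v ≠ 1 := fun e => hu.ne_one (by rw [← vo, e, orderOf_one])
    have pv := vs.one ab hv v1
    refine pr.lemF hq ((𝐂₁ v).map φ) u hy'
      ((co v y pv hy').coprime_dvd_left (index_map_dvd _ a)) ?_ ?_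
    · rintro _ ⟨h, hh, rfl⟩ z hz
      obtain ⟨w, hw, d, hd, rfl⟩ := vs.sup h
      have m := (𝐂₁ v).mul_mem (cent_le_cent1 hv (ab (inv_mem hw))) hh
      rw [inv_mul_cancel_left] at m
      obtain ⟨v', hv', k⟩ := vs.dag ab hd hv v1 (mem_cent1_comm.1 m)
      have e : φ (w * d) = φ (v' * d) := by
        rw [map_mul, map_mul, MonoidHom.mem_ker.1 (hV hw), MonoidHom.mem_ker.1 (hV hv')]
      rw [e]
      exact (co _ z k hz).coprime_dvd_left (ind_map a _)
    · rintro _ ⟨h, hh, rfl⟩ ph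
      obtain ⟨h', z, m1, m2, p1, p2, rfl⟩ := exists_piPart {u}ᶜ h
      have h1 : h' ∈ 𝐂₁ v := zpowers_le.2 hh m1
      have e : φ (h' * z) = φ h' := by
        have cm := (abel_zpowers _).mul_comm m1 m2
        refine (piPart_unique ph (piElt_one _) (p1.map φ) (p2.map φ) (by simp)
          (by rw [← map_mul, cm, map_mul]) (by simp)).1
      rw [e]
      have cm : v * h' = h' * v := (mem_cent1.1 h1).symm
      have cp : (orderOf v).Coprime (orderOf h') :=
        PiNat.coprime (π := {u}) (by rw [vo]; exact piNat_self hu) p1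
      refine (co _ y (pv.trans (ind_dvd_mul_left cm cp)) hy').coprime_dvd_left ?_
      have d1 := CF.Fgs1.index_centralizer_map_dvd (φ.subgroupMap_surjective (𝐂₁ v)) ⟨h', h1⟩
      rw [CF.Fgs1.index_centralizer_coe, CF.Fgs1.index_centralizer_coe] at d1
      refine d1.trans ?_
      rw [ind, cent1_mul cm cp, ← inf_relIndex_left]
      exact relIndex_dvd_index_of_le inf_le_left
  obtain ⟨x, xV, px⟩ := vs.ex
  have i : V ⊓ 𝐂 V = ⊥ := by
    by_contra e
    have := vs.n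
    exact ab ((vs.mn _ inferInstance e inf_le_left).trans inf_le_right)
  by_cases d : q ∣ (𝐂 V).index
  · refine (pr_quot (C := 𝐂 V) (vs.perf ab) ab fun N nN lt => ?_).c1
      (hy.map (QuotientGroup.mk'_surjective _)) hp hq (px.trans (index_dvd_of_le (cent_le_cent1 xV))) d
    have := vs.n
    exact (vs.mn ⁅V, N⁆ inferInstance (fun e => lt.not_ge (comm_eq_bot'.1 e))
      (comm_le_left (nrm vs.n _))).trans (comm_le_right (nrm nN _))
  obtain ⟨b, hb, qb⟩ := vx_of_normal a pr hq dq nB d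
  have key : ∀ g ∈ 𝐂₁ (x * b), g * x * g⁻¹ = x := fun g hg => by
    have e := mem_cent1.1 hg
    have : x⁻¹ * (g * x * g⁻¹) = b * (g * b⁻¹ * g⁻¹) := by
      calc x⁻¹ * (g * x * g⁻¹) = x⁻¹ * (g * (x * b)) * (b⁻¹ * g⁻¹) := by group
        _ = _ := by rw [e]; group
    have m : x⁻¹ * (g * x * g⁻¹) ∈ V ⊓ 𝐂 V := mem_inf.2
      ⟨mul_mem (inv_mem xV) (vs.n.conj_mem _ xV g),
        this ▸ mul_mem hb (nB.conj_mem _ (inv_mem hb) g)⟩
    exact (inv_mul_eq_one.1 (eq_one_of_mem_bot i m)).symm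
  have l1 : 𝐂₁ (x * b) ≤ 𝐂₁ x := fun g hg => mem_cent1.2 (mul_inv_eq_iff_eq_mul.1 (key g hg))
  have l2 : 𝐂₁ (x * b) ≤ 𝐂₁ b := fun g hg => mem_cent1.2 (by
    have e := mem_cent1.1 hg
    rw [← mul_assoc, mem_cent1.1 (l1 hg), mul_assoc, mul_assoc] at e
    exact mul_left_cancel e)
  exact pq _ (px.trans (ind_dvd_of_le l1)) (qb.trans (ind_dvd_of_le l2))

theorem main' {G : Type u} [Group G] [Finite G] (ns : ¬ Group.IsSolvable G) (hp : p.Prime)
    (hq : q.Prime) (vp : Vx p G) (vq : Vx q G) (hy : Hy G p q)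
    (o : ∀ y : G, q ∣ ind y → ¬ 2 ∣ ind y) : False := by
  obtain ⟨Q, hQ⟩ := exists_syl q (⊤ : Subgroup G)
  have iq : ∀ C : Subgroup G, Q ≤ C → ¬ q ∣ C.index := fun C h =>
    (piNat_compl_single hq).1 (relIndex_top_right C ▸ hQ.idx_of_le h)
  by_cases s : Sol (normalClosure (Q : Set G))
  · refine cx (L := G ⧸ normalClosure (Q : Set G)) hq (fun s' => ns ?_) (iq _ le_normalClosure) G
      (QuotientGroup.mk' _) ⟨QuotientGroup.mk'_surjective _, by rwa [QuotientGroup.ker_mk'], o⟩ vq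
    exact Group.isSolvable_of_ker_le_range (normalClosure (Q : Set G)).subtype
      (QuotientGroup.mk' (normalClosure (Q : Set G))) (by rw [QuotientGroup.ker_mk', range_subtype])
  obtain ⟨D, hD, ⟨nD, sD⟩, mD⟩ := exists_minimal (P := fun D : Subgroup G => D.Normal ∧ ¬ Sol D)
    ⟨inferInstance, s⟩
  have pf : D ≤ ⁅D, D⁆ := (mD _ ⟨inferInstance, fun s' => sD (s'.of_qt (der_normal D).norm
    (abel_qt_der D).sol)⟩ (der_le D)).ge
  obtain ⟨C, -, ⟨nC, hC⟩, mC⟩ := exists_maximal (P := fun C : Subgroup G => C.Normal ∧ ¬ D ≤ C)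
    (H := ⊥) ⟨inferInstance, fun e => sD (le_bot_iff.1 e ▸ nil_bot.sol)⟩
  have pr := pr_quot pf hC fun N n lt => by_contra fun e => lt.ne' (mC N ⟨n, e⟩ lt.le)
  have dq : q ∣ Nat.card (G ⧸ C) := by_contra fun e => hC (hD.trans (normalClosure_le_normal
    ((syl_le_ker (QuotientGroup.mk' C) hq hQ.pi e).trans (QuotientGroup.ker_mk' C).le)))
  by_cases dp : p ∣ Nat.card (G ⧸ C)
  · exact pr.c1 (hy.map (QuotientGroup.mk'_surjective C)) hp hq dp dq
  · exact c2 pr hp hq dq dp G _ ⟨QuotientGroup.mk'_surjective C, hy⟩ vp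

theorem main {G : Type u} [Group G] [Finite G] (ns : ¬ Group.IsSolvable G) (hp : p.Prime)
    (hq : q.Prime) (vp : Vx p G) (vq : Vx q G) (hy : Hy G p q) : False := by
  by_cases o : ∀ y : G, q ∣ ind y → ¬ 2 ∣ ind y
  · exact main' ns hp hq vp vq hy o
  push Not at o
  obtain ⟨y, a, b⟩ := o
  exact main' ns hq hp vq vp hy.symm fun x c d => not_dvd_of_coprime (hy x y c a) Nat.prime_two d b

end CF.Cgd
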